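import Cfsg.Agent.OddTwoP.Equiv

/-!
# Elements of order `p` acting on the cliques
-/

set_option autoImplicit false

namespace Cfsg.Agent.OddTwoP

open Subgroup

universe u

theorem exists_pow_pow_eq {G : Type*} [Group G] {p : ℕ} (hp : p.Prime) {g : G} (hg : g ^ p = 1)
    {k : ℕ} (hk : ¬ p ∣ k) : ∃ u : ℕ, (g ^ k) ^ u = g := by
  haveI : Fact p.Prime := ⟨hp⟩
  refine ⟨((k : ZMod p)⁻¹).val, ?_⟩
  have h1 : ((k * ((k : ZMod p)⁻¹).val : ℕ) : ZMod p) = ((1 : ℕ) : ZMod p) := by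
    rw [Nat.cast_mul, ZMod.natCast_zmod_val, Nat.cast_one]
    exact mul_inv_cancel₀ fun h => hk ((ZMod.natCast_eq_zero_iff _ _).1 h)
  rw [ZMod.natCast_eq_natCast_iff'] at h1
  rw [← pow_mul, pow_eq_pow_mod _ hg, h1, Nat.mod_eq_of_lt hp.one_lt, pow_one]

/-- An element of order `p` permuting `p` elements and fixing one fixes all of them. -/
theorem fix_of_fix_one {G : Type*} [Group G] [Finite G] {p : ℕ} (hp : p.Prime) {Ω : Set G}
    (hΩ : Ω.ncard = p) {g : G} (hg : g ^ p = 1) (hinv : ∀ d ∈ Ω, g * d * g⁻¹ ∈ Ω) {x : G}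
    (hx : x ∈ Ω) (hgx : Commute g x) : ∀ d ∈ Ω, Commute g d := by
  intro d hd
  by_contra hgd
  have hpow : ∀ i : ℕ, g ^ i * d * (g ^ i)⁻¹ ∈ Ω := by
    intro i
    induction i with
    | zero => simpa using hd
    | succ i ih =>
      have := hinv _ ih
      convert this using 1
      rw [pow_succ']
      group
  have hinj : Set.InjOn (fun i : ℕ => g ^ i * d * (g ^ i)⁻¹) ↑(Finset.range p) := by
    intro i hi j hj hij
    simp only [Finset.coe_range, Set.mem_Iio] at hi hj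
    by_contra hne
    wlog hlt : i < j generalizing i j with H
    · exact H hij.symm hj hi (Ne.symm hne) (by omega)
    have hc : Commute (g ^ (j - i)) d := by
      have e : g ^ j = g ^ i * g ^ (j - i) := by
        rw [← pow_add]
        congr 1
        omega
      simp only [e] at hij
      show g ^ (j - i) * d = d * g ^ (j - i)
      calc g ^ (j - i) * d
          = (g ^ i)⁻¹ * (g ^ i * g ^ (j - i) * d * (g ^ i * g ^ (j - i))⁻¹) * g ^ i *
            g ^ (j - i) := by group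
        _ = (g ^ i)⁻¹ * (g ^ i * d * (g ^ i)⁻¹) * g ^ i * g ^ (j - i) := by rw [← hij]
        _ = d * g ^ (j - i) := by group
    obtain ⟨u, hu⟩ := exists_pow_pow_eq hp hg (k := j - i)
      fun h => absurd (Nat.le_of_dvd (by omega) h) (by omega)
    exact hgd (hu ▸ hc.pow_left u)
  have hsub : ((fun i : ℕ => g ^ i * d * (g ^ i)⁻¹) '' ↑(Finset.range p)) ⊆ Ω \ {x} := by
    rintro _ ⟨i, -, rfl⟩
    refine ⟨hpow i, fun h => ?_⟩
    rw [Set.mem_singleton_iff] at h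
    have e : d = x := by
      have h1 := hgx.pow_left i
      rw [mul_inv_eq_iff_eq_mul, ← h1.eq] at h
      exact mul_left_cancel h
    exact hgd (e ▸ hgx)
  have h1 := Set.ncard_le_ncard hsub (Set.toFinite _)
  rw [Set.ncard_image_of_injOn hinj, Set.ncard_coe_finset, Finset.card_range,
    Set.ncard_sdiff_singleton_of_mem hx, hΩ] at h1
  have := hp.pos
  omega

theorem inv_mul_pow {G : Type*} [Group G] {p : ℕ} {j g : G} (hc : Commute j g) (hj : j ^ p = 1)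
    (hg : g ^ p = 1) (a : ℕ) : ((j ^ a)⁻¹ * g) ^ p = 1 := by
  rw [((hc.pow_left a).inv_left).mul_pow, hg, mul_one, inv_pow, ← pow_mul, mul_comm, pow_mul, hj,
    one_pow, inv_one]

namespace Min

variable {G : Type u} [Group G] [Finite G] {p : ℕ} {D : Set G} (hM : Min p D)
include hM

theorem swaps_card {k l : G} (hk : k ∈ D) (hl : l ∈ D) (hkl : ¬ Commute k l) :
    (swaps D k l).ncard = p := by
  rw [hM.ncard_swaps hk hl hkl, hM.clique_card hl]

theorem swaps_nonempty {k l : G} (hk : k ∈ D) (hl : l ∈ D) (hkl : ¬ Commute k l) :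
    mid p k l ∈ swaps D k l :=
  ⟨hM.cfg.mid_mem hk hl hkl, by rw [hM.cfg.mid_conj hk hl hkl]⟩

/-- the image of a clique -/
theorem conj_clique_mem {g x d : G} (hx : x ∈ D) (hd : d ∈ clique D x)
    (hg : Commute (g * x * g⁻¹) x) : g * d * g⁻¹ ∈ clique D x :=
  ⟨hM.cfg.conj d hd.1 g,
    hM.ctr (hM.cfg.conj d hd.1 g) (hM.cfg.conj x hx g) hx (hM.conj_commute_iff.2 hd.2) hg⟩

theorem commute_clique {g x : G} (hx : x ∈ D) (hg : g ^ p = 1) (hgx : Commute g x) :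
    ∀ d ∈ clique D x, Commute g d :=
  fix_of_fix_one hM.cfg.prime (hM.clique_card hx) hg
    (fun d hd => hM.conj_clique_mem hx hd (by rw [hgx.eq, mul_inv_cancel_right]))
    ⟨hx, Commute.refl x⟩ hgx

theorem exists_clique_ne {x : G} (hx : x ∈ D) : ∃ a ∈ clique D x, a ≠ x := by
  refine Set.exists_ne_of_one_lt_ncard ?_ x
  rw [hM.clique_card hx]
  exact hM.cfg.prime.one_lt

/-- An element of order `p` cannot centralise two non-commuting members. -/
theorem eq_one_of_centralizes {g x y : G} (hx : x ∈ D) (hy : y ∈ D) (hxy : ¬ Commute x y)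
    (hg : g ^ p = 1) (hgx : Commute g x) (hgy : Commute g y) : g = 1 := by
  by_contra hne
  obtain ⟨a, ha, hax⟩ := hM.exists_clique_ne hx
  have hga := hM.commute_clique hx hg hgx a ha
  have hyx : ¬ Commute y x := fun h => hxy h.symm
  have hya : ¬ Commute y a := fun h => hyx (hM.ctr hy ha.1 hx h ha.2)
  have hk := hM.key_centralized hne hx ha.1 hy hgx.symm hga.symm hgy.symm ha.2.symm hyx hya
  have ht := hM.mul_mem_of_commute hx ha.1 ha.2.symm hax.symm
  have hty : ¬ Commute (x * a) y := fun h =>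
    hxy (hM.ctr hx ht hy ((Commute.refl x).mul_right ha.2.symm) h)
  exact hM.moves ht hy hty hk

/-- An element of order `p` centralising a member stabilises no other clique. -/
theorem eq_one_of_fix {g x y : G} (hx : x ∈ D) (hy : y ∈ D) (hxy : ¬ Commute x y)
    (hg : g ^ p = 1) (hgx : Commute g x) (hgy : Commute (g * y * g⁻¹) y) : g = 1 := by
  have hC := hM.cfg
  set y' := x * y * x with hy'
  have hy'D := hC.conj_self hx hy
  have hn := hM.moves hx hy hxy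
  have hxS : x ∈ swaps D y y' := ⟨hx, Commute.refl _⟩
  have hgy' : Commute (g * y' * g⁻¹) y' := by
    have e : g * y' * g⁻¹ = x * (g * y * g⁻¹) * x⁻¹ := by
      rw [hy', hC.inv_eq hx]
      calc g * (x * y * x) * g⁻¹ = (g * x) * y * (x * g⁻¹) := by simp only [mul_assoc]
        _ = (x * g) * y * (g⁻¹ * x) := by rw [hgx.eq, hgx.inv_left.eq]
        _ = x * (g * y * g⁻¹) * x := by simp only [mul_assoc]
    have h := (hM.conj_commute_iff (g := x)).2 hgy
    rw [← e, hC.inv_eq hx] at h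
    exact h
  have hperm : ∀ s ∈ swaps D y y', g * s * g⁻¹ ∈ swaps D y y' := by
    intro s hs
    refine ⟨hC.conj s hs.1 g, ?_⟩
    have h1 : Commute (g * (s * y * s) * g⁻¹) y' :=
      hM.ctr (hC.conj _ (hC.conj_self hs.1 hy) g) (hC.conj _ hy'D g) hy'D
        (hM.conj_commute_iff.2 hs.2) hgy'
    have h2 : Commute (g * s * g⁻¹ * y * (g * s * g⁻¹)) (g * (s * y * s) * g⁻¹) := by
      have := (hM.conj_commute_iff (g := g * s * g⁻¹)).2 hgy
      rw [hC.inv_eq (hC.conj s hs.1 g)] at this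
      convert this.symm using 1
      group
    exact hM.ctr (hC.conj_self (hC.conj s hs.1 g) hy) (hC.conj _ (hC.conj_self hs.1 hy) g) hy'D
      h2 h1
  have hall := fix_of_fix_one hC.prime (hM.swaps_card hy hy'D hn) hg hperm hxS hgx
  obtain ⟨s, hs, hsx⟩ := Set.exists_ne_of_one_lt_ncard
    (by rw [hM.swaps_card hy hy'D hn]; exact hC.prime.one_lt) x
  exact hM.eq_one_of_centralizes hx hs.1 (hM.swaps_pairwise hy hy'D hn hxS hs hsx.symm) hg hgx
    (hall s hs)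

theorem pres {k l s t : G} (hk : k ∈ D) (hl : l ∈ D) (hs : s ∈ swaps D k l)
    (ht : t ∈ swaps D k l) : Commute (s * t * k * (t * s)) k := by
  have hC := hM.cfg
  have h := (hM.conj_commute_iff (g := s)).2 ht.2
  rw [hC.inv_eq hs.1] at h
  rw [show s * t * k * (t * s) = s * (t * k * t) * s by simp only [mul_assoc]]
  exact hM.ctr (hC.conj_self hs.1 (hC.conj_self ht.1 hk)) (hC.conj_self hs.1 hl) hk h
    (hM.swaps_symm hs).2

/-- the swaps form one dihedral class -/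
theorem swaps_eq {k l s₀ s₁ : G} (hk : k ∈ D) (hl : l ∈ D) (hkl : ¬ Commute k l)
    (h₀ : s₀ ∈ swaps D k l) (h₁ : s₁ ∈ swaps D k l) (hne : s₀ ≠ s₁) :
    orderOf (s₀ * s₁) = p ∧ (∀ i : ℕ, s₀ * (s₀ * s₁) ^ i * s₀ = ((s₀ * s₁) ^ i)⁻¹) ∧
      (∀ i : ℕ, s₀ * (s₀ * s₁) ^ i ∈ swaps D k l) ∧
        ∀ s ∈ swaps D k l, ∃ i < p, s = s₀ * (s₀ * s₁) ^ i := by
  have hC := hM.cfg
  set j := s₀ * s₁ with hj
  have ho : orderOf j = p := hC.order_eq h₀.1 h₁.1 (hM.swaps_pairwise hk hl hkl h₀ h₁ hne)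
  have hinv : ∀ i : ℕ, s₀ * j ^ i * s₀ = (j ^ i)⁻¹ := by
    intro i
    have h := congrArg (· ^ i) (Invol.conj_mul_self (hC.inv s₀ h₀.1) (hC.inv s₁ h₁.1))
    simp only [← hj, conj_pow, inv_pow] at h
    rwa [hC.inv_eq h₀.1] at h
  have hmem : ∀ i : ℕ, s₀ * j ^ i ∈ swaps D k l ∧ s₀ * j ^ (i + 1) ∈ swaps D k l := by
    intro i
    induction i with
    | zero =>
      refine ⟨by simpa using h₀, ?_⟩
      rw [pow_one, hj, ← mul_assoc, hC.sq h₀.1, one_mul]
      exact h₁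
    | succ i ih =>
      refine ⟨ih.2, ?_⟩
      have h := hM.swaps_conj hk hl ih.2 ih.1
      have e : s₀ * j ^ (i + 1) * (s₀ * j ^ i) * (s₀ * j ^ (i + 1)) = s₀ * j ^ (i + 1 + 1) := by
        calc s₀ * j ^ (i + 1) * (s₀ * j ^ i) * (s₀ * j ^ (i + 1))
            = s₀ * j ^ (i + 1) * (s₀ * j ^ i * s₀) * j ^ (i + 1) := by simp only [mul_assoc]
          _ = s₀ * (j * j ^ i * (j ^ i)⁻¹ * j ^ (i + 1)) := by
              rw [hinv, ← pow_succ']; simp only [mul_assoc]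
          _ = s₀ * j ^ (i + 1 + 1) := by rw [mul_inv_cancel_right, ← pow_succ']
      rwa [e] at h
  refine ⟨ho, hinv, fun i => (hmem i).1, fun s hs => ?_⟩
  have hsub : (fun i : ℕ => s₀ * j ^ i) '' ↑(Finset.range p) ⊆ swaps D k l := by
    rintro _ ⟨i, -, rfl⟩
    exact (hmem i).1
  have hinj : Set.InjOn (fun i : ℕ => s₀ * j ^ i) ↑(Finset.range p) := by
    intro a ha b hb hab
    simp only [Finset.coe_range, Set.mem_Iio] at ha hb
    exact pow_injOn_Iio_orderOf (by rw [ho]; exact ha) (by rw [ho]; exact hb) (mul_left_cancel hab)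
  have heq := Set.eq_of_subset_of_ncard_le hsub (by
    rw [Set.ncard_image_of_injOn hinj, Set.ncard_coe_finset, Finset.card_range,
      hM.swaps_card hk hl hkl]) (Set.toFinite _)
  rw [← heq] at hs
  obtain ⟨i, hi, rfl⟩ := hs
  exact ⟨i, by simpa using hi, rfl⟩

theorem pow_fix_eq_one {k l s₀ s₁ : G} (hk : k ∈ D) (hl : l ∈ D) (hkl : ¬ Commute k l)
    (h₀ : s₀ ∈ swaps D k l) (h₁ : s₁ ∈ swaps D k l) (hne : s₀ ≠ s₁) (i : ℕ)
    (hc : Commute ((s₀ * s₁) ^ i) k) : (s₀ * s₁) ^ i = 1 := by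
  have hC := hM.cfg
  obtain ⟨-, hinv, hmem, -⟩ := hM.swaps_eq hk hl hkl h₀ h₁ hne
  have e : s₀ = s₀ * (s₀ * s₁) ^ i := by
    refine hC.conj_inj hk h₀.1 (hmem i).1 (hM.swaps_not_commute hk hkl h₀) ?_
    calc s₀ * k * s₀ = s₀ * ((s₀ * s₁) ^ i * k * ((s₀ * s₁) ^ i)⁻¹) * s₀ := by
          rw [hc.eq, mul_inv_cancel_right]
      _ = s₀ * (s₀ * s₁) ^ i * k * (s₀ * (s₀ * s₁) ^ i * s₀ * s₀) := by
          rw [← hinv]; simp only [mul_assoc]
      _ = s₀ * (s₀ * s₁) ^ i * k * (s₀ * (s₀ * s₁) ^ i) := by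
          rw [mul_assoc (s₀ * (s₀ * s₁) ^ i) s₀ s₀, hC.sq h₀.1, mul_one]
  exact left_eq_mul.1 e

theorem pow_pres {k l s₀ s₁ : G} (hk : k ∈ D) (hl : l ∈ D) (hkl : ¬ Commute k l)
    (h₀ : s₀ ∈ swaps D k l) (h₁ : s₁ ∈ swaps D k l) (hne : s₀ ≠ s₁) (i : ℕ) :
    Commute ((s₀ * s₁) ^ i * k * ((s₀ * s₁) ^ i)⁻¹) k ∧
      Commute ((s₀ * s₁) ^ i * l * ((s₀ * s₁) ^ i)⁻¹) l ∧
      Commute (((s₀ * s₁) ^ i)⁻¹ * l * (s₀ * s₁) ^ i) l := by
  have hC := hM.cfg
  obtain ⟨-, hinv, hmem, -⟩ := hM.swaps_eq hk hl hkl h₀ h₁ hne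
  have e1 : (s₀ * s₁) ^ i = s₀ * (s₀ * (s₀ * s₁) ^ i) := by
    rw [← mul_assoc s₀ s₀, hC.sq h₀.1, one_mul]
  have e2 : ((s₀ * s₁) ^ i)⁻¹ = s₀ * (s₀ * s₁) ^ i * s₀ := (hinv i).symm
  refine ⟨?_, ?_, ?_⟩
  · rw [e2]
    nth_rewrite 1 [e1]
    exact hM.pres hk hl h₀ (hmem i)
  · rw [e2]
    nth_rewrite 1 [e1]
    exact hM.pres hl hk (hM.swaps_symm h₀) (hM.swaps_symm (hmem i))
  · rw [e2]
    nth_rewrite 2 [e1]
    exact hM.pres hl hk (hM.swaps_symm (hmem i)) (hM.swaps_symm h₀)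

/-- An element of order `p` stabilising two cliques is inverted by all swaps between them. -/
theorem inverted {k l g : G} (hk : k ∈ D) (hl : l ∈ D) (hkl : ¬ Commute k l) (hg : g ^ p = 1)
    (hgk : Commute (g * k * g⁻¹) k) (hgl : Commute (g * l * g⁻¹) l) :
    ∀ s ∈ swaps D k l, s * g * s = g⁻¹ := by
  classical
  have hC := hM.cfg
  haveI : Fact p.Prime := ⟨hC.prime⟩
  have h₀ := hM.swaps_nonempty hk hl hkl
  set s₀ := mid p k l with hs₀
  obtain ⟨s₁, h₁, hne1⟩ := Set.exists_ne_of_one_lt_ncard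
    (by rw [hM.swaps_card hk hl hkl]; exact hC.prime.one_lt) s₀
  have hne : s₀ ≠ s₁ := hne1.symm
  obtain ⟨ho, hinv, hmem, hall⟩ := hM.swaps_eq hk hl hkl h₀ h₁ hne
  set j := s₀ * s₁ with hj
  have hperm : ∀ s ∈ swaps D k l, g * s * g⁻¹ ∈ swaps D k l := by
    intro s hs
    have hgs := hC.conj s hs.1 g
    refine ⟨hgs, ?_⟩
    have h1 : Commute (g * (s * k * s) * g⁻¹) l :=
      hM.ctr (hC.conj _ (hC.conj_self hs.1 hk) g) (hC.conj _ hl g) hl
        (hM.conj_commute_iff.2 hs.2) hgl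
    have h2 : Commute (g * s * g⁻¹ * k * (g * s * g⁻¹)) (g * (s * k * s) * g⁻¹) := by
      have := (hM.conj_commute_iff (g := g * s * g⁻¹)).2 hgk
      rw [hC.inv_eq hgs] at this
      convert this.symm using 1
      group
    exact hM.ctr (hC.conj_self hgs hk) (hC.conj _ (hC.conj_self hs.1 hk) g) hl h2 h1
  obtain ⟨a₀, -, ha₀⟩ := hall _ (hperm s₀ h₀)
  obtain ⟨a₁, -, ha₁⟩ := hall _ (hperm s₁ h₁)
  have hjp : j ^ p = 1 := by rw [← ho, pow_orderOf_eq_one]
  obtain ⟨r, hr⟩ : ∃ r : ℕ, g * j * g⁻¹ = j ^ r := by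
    refine ⟨(p - 1) * a₀ + a₁, ?_⟩
    have hji : (j ^ a₀)⁻¹ = j ^ ((p - 1) * a₀) := by
      refine inv_eq_of_mul_eq_one_right ?_
      rw [← pow_add, show a₀ + (p - 1) * a₀ = p * a₀ by
        have := hC.prime.pos
        rw [Nat.sub_one_mul]
        have : a₀ ≤ p * a₀ := Nat.le_mul_of_pos_left _ this
        omega, pow_mul, hjp, one_pow]
    calc g * j * g⁻¹ = (g * s₀ * g⁻¹) * (g * s₁ * g⁻¹) := by rw [hj]; group
      _ = s₀ * j ^ a₀ * s₀ * j ^ a₁ := by rw [ha₀, ha₁]; simp only [mul_assoc]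
      _ = j ^ ((p - 1) * a₀ + a₁) := by rw [hinv, hji, pow_add]
  have hiter : ∀ n : ℕ, g ^ n * j * (g ^ n)⁻¹ = j ^ r ^ n := by
    intro n
    induction n with
    | zero => simp
    | succ n ih =>
      calc g ^ (n + 1) * j * (g ^ (n + 1))⁻¹ = g * (g ^ n * j * (g ^ n)⁻¹) * g⁻¹ := by
            rw [pow_succ']; group
        _ = (g * j * g⁻¹) ^ r ^ n := by rw [ih, conj_pow]
        _ = j ^ r ^ (n + 1) := by rw [hr, ← pow_mul, pow_succ']
  have hmod : j ^ r ^ p = j ^ r := by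
    refine pow_eq_pow_iff_modEq.2 ?_
    rw [ho, ← ZMod.natCast_eq_natCast_iff, Nat.cast_pow]
    exact ZMod.pow_card _
  have hjg : Commute j g := by
    have h := hiter p
    rw [hg, one_mul, inv_one, mul_one, hmod, ← hr] at h
    show j * g = g * j
    conv_lhs => rw [h]
    rw [inv_mul_cancel_right]
  -- regular on the clique of `k`
  have hsub : (fun i : ℕ => j ^ i * k * (j ^ i)⁻¹) '' ↑(Finset.range p) ⊆ clique D k := by
    rintro _ ⟨i, -, rfl⟩
    exact ⟨hC.conj k hk _, (hM.pow_pres hk hl hkl h₀ h₁ hne i).1⟩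
  have hinj : Set.InjOn (fun i : ℕ => j ^ i * k * (j ^ i)⁻¹) ↑(Finset.range p) := by
    intro a ha b hb hab
    simp only [Finset.coe_range, Set.mem_Iio] at ha hb
    by_contra hne'
    wlog hlt : a < b generalizing a b with H
    · exact H hab.symm hb ha (Ne.symm hne') (by omega)
    have e : j ^ b = j ^ a * j ^ (b - a) := by
      rw [← pow_add]
      congr 1
      omega
    simp only [e] at hab
    have hc : Commute (j ^ (b - a)) k := by
      show j ^ (b - a) * k = k * j ^ (b - a)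
      calc j ^ (b - a) * k
          = (j ^ a)⁻¹ * (j ^ a * j ^ (b - a) * k * (j ^ a * j ^ (b - a))⁻¹) * j ^ a *
            j ^ (b - a) := by group
        _ = (j ^ a)⁻¹ * (j ^ a * k * (j ^ a)⁻¹) * j ^ a * j ^ (b - a) := by rw [← hab]
        _ = k * j ^ (b - a) := by group
    have h1 := orderOf_dvd_of_pow_eq_one (hM.pow_fix_eq_one hk hl hkl h₀ h₁ hne _ hc)
    rw [← hj, ho] at h1
    exact absurd (Nat.le_of_dvd (by omega) h1) (by omega)
  have heq := Set.eq_of_subset_of_ncard_le hsub (by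
    rw [Set.ncard_image_of_injOn hinj, Set.ncard_coe_finset, Finset.card_range,
      hM.clique_card hk]) (Set.toFinite _)
  have hgkm : g * k * g⁻¹ ∈ clique D k := ⟨hC.conj k hk g, hgk⟩
  rw [← heq] at hgkm
  obtain ⟨a, -, ha⟩ := hgkm
  simp only at ha
  have hgeq : g = j ^ a := by
    have h1 : (j ^ a)⁻¹ * g = 1 := by
      refine hM.eq_one_of_fix hk hl hkl (inv_mul_pow hjg hjp hg a) ?_ ?_
      · show (j ^ a)⁻¹ * g * k = k * ((j ^ a)⁻¹ * g)
        calc (j ^ a)⁻¹ * g * k = (j ^ a)⁻¹ * (g * k * g⁻¹) * g := by group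
          _ = (j ^ a)⁻¹ * (j ^ a * k * (j ^ a)⁻¹) * g := by rw [ha]
          _ = k * ((j ^ a)⁻¹ * g) := by group
      · have h2 := (hM.conj_commute_iff (g := (j ^ a)⁻¹)).2 hgl
        rw [inv_inv] at h2
        have h3 : Commute ((j ^ a)⁻¹ * (g * l * g⁻¹) * j ^ a) l :=
          hM.ctr (by simpa using hC.conj _ (hC.conj l hl g) (j ^ a)⁻¹)
            (by simpa using hC.conj l hl (j ^ a)⁻¹) hl h2 (hM.pow_pres hk hl hkl h₀ h₁ hne a).2.2
        convert h3 using 1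
        group
    exact (inv_mul_eq_one.1 h1).symm
  intro s hs
  obtain ⟨i, -, rfl⟩ := hall s hs
  rw [hgeq]
  calc s₀ * j ^ i * j ^ a * (s₀ * j ^ i) = s₀ * (j ^ i * j ^ a) * s₀ * j ^ i := by
        simp only [mul_assoc]
    _ = (j ^ (i + a))⁻¹ * j ^ i := by rw [← pow_add, hinv]
    _ = (j ^ a)⁻¹ := by rw [pow_add]; group

end Min

end Cfsg.Agent.OddTwoP
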