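import Cfsg.Agent.OddTwoP.Cliques
import Mathlib.GroupTheory.PGroup

/-!
# The contradiction in the case where commuting is transitive
-/

set_option autoImplicit false

namespace Cfsg.Agent.OddTwoP

open Subgroup

universe u

namespace Min

variable {G : Type u} [Group G] [Finite G] {p : ℕ} {D : Set G} (hM : Min p D)
include hM

/-- some product of two non-commuting members stabilises no clique -/
theorem exists_free_product : ∃ x ∈ D, ∃ y ∈ D, ¬ Commute x y ∧
    ∀ c ∈ D, ¬ Commute (x * y * c * (x * y)⁻¹) c := by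
  classical
  by_contra hcon
  push Not at hcon
  haveI : Fintype G := Fintype.ofFinite G
  have hC := hM.cfg
  set P : Finset (G × G) :=
    Finset.univ.filter fun q => q.1 ∈ D ∧ q.2 ∈ D ∧ ¬ Commute q.1 q.2 with hP
  set A : Finset (G × G × G) :=
    Finset.univ.filter fun q => (q.1 ∈ D ∧ q.2.1 ∈ D ∧ ¬ Commute q.1 q.2.1) ∧ q.2.2 ∈ D ∧
      Commute (q.1 * q.2.1 * q.2.2 * (q.1 * q.2.1)⁻¹) q.2.2 with hA
  -- the moved clique
  have hxc : ∀ q ∈ A, ¬ Commute q.2.2 q.1 := by
    intro q hq hcx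
    simp only [hA, Finset.mem_filter, Finset.mem_univ, true_and] at hq
    obtain ⟨⟨hx, hy, hxy⟩, hc, hfix⟩ := hq
    obtain ⟨x, y, c⟩ := q
    simp only at hx hy hxy hc hfix hcx
    rw [mul_inv_rev, hC.inv_eq hx, hC.inv_eq hy] at hfix
    have h1 := (hM.conj_commute_iff (g := x)).2 hfix
    rw [hC.inv_eq hx, show x * c * x = c by rw [← hcx.eq, mul_assoc, hC.sq hx, mul_one],
      show x * (x * y * c * (y * x)) * x = (x * x) * (y * c * y) * (x * x) by
        simp only [mul_assoc], hC.sq hx, one_mul, mul_one] at h1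
    by_cases hyc : Commute y c
    · exact hxy (hM.ctr hx hc hy hcx.symm hyc.symm)
    · exact hM.moves hy hc hyc h1.symm
  have hlow : P.card * p ≤ A.card := by
    have hmap : (A : Set (G × G × G)).MapsTo (fun q => (q.1, q.2.1)) (P : Set (G × G)) := by
      intro q hq
      simp only [Finset.mem_coe, hA, hP, Finset.mem_filter, Finset.mem_univ, true_and] at hq ⊢
      exact hq.1
    rw [Finset.card_eq_sum_card_fiberwise hmap, ← smul_eq_mul]
    refine Finset.card_nsmul_le_sum _ _ _ fun b hb => ?_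
    simp only [hP, Finset.mem_filter, Finset.mem_univ, true_and] at hb
    obtain ⟨c₀, hc₀, hfix⟩ := hcon b.1 hb.1 b.2 hb.2.1 hb.2.2
    have hsub : (clique D c₀).toFinset.image (fun d => (b.1, b.2, d)) ⊆
        A.filter fun q => (q.1, q.2.1) = b := by
      intro q hq
      obtain ⟨d, hd, rfl⟩ := Finset.mem_image.1 hq
      rw [Set.mem_toFinset] at hd
      simp only [hA, Finset.mem_filter, Finset.mem_univ, true_and]
      refine ⟨⟨hb, hd.1, ?_⟩, trivial⟩
      have h := hM.conj_clique_mem hc₀ hd hfix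
      exact hM.ctr h.1 hc₀ hd.1 h.2 hd.2.symm
    have := Finset.card_le_card hsub
    rwa [Finset.card_image_of_injective _ (fun a b h => by simpa using h),
      ← Set.ncard_eq_toFinset_card', hM.clique_card hc₀] at this
  have hhigh : A.card ≤ P.card * (p - 1) := by
    have hmap : (A : Set (G × G × G)).MapsTo (fun q => (q.2.2, q.1)) (P : Set (G × G)) := by
      intro q hq
      have h := hxc q hq
      simp only [Finset.mem_coe, hA, hP, Finset.mem_filter, Finset.mem_univ, true_and] at hq ⊢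
      exact ⟨hq.2.1, hq.1.1, h⟩
    rw [Finset.card_eq_sum_card_fiberwise hmap, ← smul_eq_mul]
    refine Finset.sum_le_card_nsmul _ _ _ fun b hb => ?_
    simp only [hP, Finset.mem_filter, Finset.mem_univ, true_and] at hb
    obtain ⟨c, x⟩ := b
    simp only at hb
    obtain ⟨hc, hx, hcx⟩ := hb
    set l := x * c * x with hl
    have hlD := hC.conj_self hx hc
    have hcl : ¬ Commute c l := hM.moves hx hc fun h => hcx h.symm
    have hxS : x ∈ swaps D c l := ⟨hx, Commute.refl _⟩
    have hcard : ((swaps D c l).toFinset.erase x).card = p - 1 := by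
      rw [Finset.card_erase_of_mem (Set.mem_toFinset.2 hxS), ← Set.ncard_eq_toFinset_card',
        hM.swaps_card hc hlD hcl]
    rw [← hcard]
    refine Finset.card_le_card_of_injOn (fun q => q.2.1) ?_ ?_
    · intro q hq
      rw [Finset.mem_coe, Finset.mem_filter, hA, Finset.mem_filter, Prod.mk.injEq] at hq
      obtain ⟨⟨-, ⟨hqx, hqy, hqxy⟩, -, hfix⟩, e1, e2⟩ := hq
      rw [Finset.mem_coe, Finset.mem_erase, Set.mem_toFinset]
      rw [e2] at hqxy hfix
      rw [e1] at hfix
      refine ⟨fun h => hqxy (h ▸ Commute.refl _), hqy, ?_⟩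
      have h1 := (hM.conj_commute_iff (g := x)).2 hfix
      rw [mul_inv_rev, hC.inv_eq hx, hC.inv_eq hqy,
        show x * (x * q.2.1 * c * (q.2.1 * x)) * x = (x * x) * (q.2.1 * c * q.2.1) * (x * x) by
          simp only [mul_assoc], hC.sq hx, one_mul, mul_one] at h1
      exact h1
    · intro q hq q' hq' h
      rw [Finset.mem_coe, Finset.mem_filter] at hq hq'
      obtain ⟨x1, y1, c1⟩ := q
      obtain ⟨x2, y2, c2⟩ := q'
      simp only [Prod.mk.injEq] at hq hq' h ⊢
      exact ⟨hq.2.2.trans hq'.2.2.symm, h, hq.2.1.trans hq'.2.1.symm⟩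
  obtain ⟨x, hx⟩ := hM.nonempty
  obtain ⟨y, hy, hxy⟩ := hM.exists_nc hx
  have hPpos : 0 < P.card := Finset.card_pos.2 ⟨(x, y), by
    simp only [hP, Finset.mem_filter, Finset.mem_univ, true_and]
    exact ⟨hx, hy, hxy⟩⟩
  have h1 := hlow.trans hhigh
  have h2 := Nat.le_of_mul_le_mul_left h1 hPpos
  have := hC.five
  omega

theorem clique_eq_iff {c d : G} (hc : c ∈ D) (hd : d ∈ D) :
    clique D c = clique D d ↔ Commute c d := by
  refine ⟨fun h => ?_, fun h => ?_⟩
  · have : c ∈ clique D c := ⟨hc, Commute.refl c⟩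
    rw [h] at this
    exact this.2
  · ext e
    exact ⟨fun he => ⟨he.1, hM.ctr he.1 hc hd he.2 h⟩,
      fun he => ⟨he.1, hM.ctr he.1 hd hc he.2 h.symm⟩⟩

theorem conj_clique {g x : G} :
    (MulAut.conj g : G → G) '' clique D x = clique D (g * x * g⁻¹) := by
  ext d
  constructor
  · rintro ⟨e, he, rfl⟩
    exact ⟨by simpa using hM.cfg.conj e he.1 g, by simpa using (hM.conj_commute_iff (g := g)).2 he.2⟩
  · rintro ⟨hd, hc⟩
    refine ⟨g⁻¹ * d * g, ⟨by simpa using hM.cfg.conj d hd g⁻¹, ?_⟩,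
      by rw [MulAut.conj_apply]; group⟩
    have := (hM.conj_commute_iff (g := g⁻¹)).2 hc
    simpa [mul_assoc] using this

/-- An element of order `p` stabilising two cliques stabilises a third one. -/
theorem exists_third {k l g : G} (hk : k ∈ D) (hl : l ∈ D) (hkl : ¬ Commute k l) (hg : g ^ p = 1)
    (hgk : Commute (g * k * g⁻¹) k) (hgl : Commute (g * l * g⁻¹) l) :
    ∃ m ∈ D, ¬ Commute m k ∧ ¬ Commute m l ∧ Commute (g * m * g⁻¹) m := by
  classical
  have hC := hM.cfg
  haveI : Fact p.Prime := ⟨hC.prime⟩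
  let act : MulAction G {C : Set G // ∃ c ∈ D, C = clique D c} :=
    { smul := fun a C => ⟨(MulAut.conj a : G → G) '' C.1, by
        obtain ⟨c, hc, e⟩ := C.2
        exact ⟨a * c * a⁻¹, hC.conj c hc a, by rw [e, hM.conj_clique]⟩⟩
      one_smul := fun C => Subtype.ext (by
        show (MulAut.conj (1 : G) : G → G) '' C.1 = C.1
        simp)
      mul_smul := fun a b C => Subtype.ext (by
        show (MulAut.conj (a * b) : G → G) '' C.1 =
          (MulAut.conj a : G → G) '' ((MulAut.conj b : G → G) '' C.1)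
        rw [Set.image_image]
        simp [mul_assoc]) }
  letI := act
  have hzp : ∀ h : G, h ^ p = 1 → IsPGroup p (zpowers h) := fun h hh u => ⟨1, by
    obtain ⟨i, hi⟩ := u.2
    refine Subtype.ext ?_
    show (u : G) ^ p ^ 1 = 1
    rw [← hi, pow_one]
    show (h ^ i) ^ p = 1
    rw [← zpow_natCast (h ^ i), ← zpow_mul, mul_comm, zpow_mul, zpow_natCast, hh, one_zpow]⟩
  obtain ⟨x₀, hx₀, y₀, hy₀, hxy₀, hfree⟩ := hM.exists_free_product
  have hg₀ := hC.pow_eq_one hx₀ hy₀ hxy₀
  have hzero : p ∣ Nat.card {C : Set G // ∃ c ∈ D, C = clique D c} := by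
    have h := (hzp _ hg₀).card_modEq_card_fixedPoints {C : Set G // ∃ c ∈ D, C = clique D c}
    haveI : IsEmpty (MulAction.fixedPoints (zpowers (x₀ * y₀))
        {C : Set G // ∃ c ∈ D, C = clique D c}) := ⟨by
      rintro ⟨⟨C, c, hc, rfl⟩, hf⟩
      have e := congrArg Subtype.val (hf ⟨x₀ * y₀, mem_zpowers _⟩)
      change (MulAut.conj (x₀ * y₀) : G → G) '' clique D c = clique D c at e
      rw [hM.conj_clique, hM.clique_eq_iff (hC.conj c hc _) hc] at e
      exact hfree c hc e⟩
    rw [Nat.card_of_isEmpty (α := MulAction.fixedPoints (zpowers (x₀ * y₀))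
      {C : Set G // ∃ c ∈ D, C = clique D c})] at h
    exact Nat.modEq_zero_iff_dvd.1 h
  have hfix : ∀ (c : G) (hc : c ∈ D), Commute (g * c * g⁻¹) c →
      (⟨clique D c, c, hc, rfl⟩ : {C : Set G // ∃ c ∈ D, C = clique D c}) ∈
        MulAction.fixedPoints (zpowers g) {C : Set G // ∃ c ∈ D, C = clique D c} := by
    intro c hc hgc
    rintro ⟨a, ha⟩
    have h1 : g ∈ MulAction.stabilizer G
        (⟨clique D c, c, hc, rfl⟩ : {C : Set G // ∃ c ∈ D, C = clique D c}) := by
      refine MulAction.mem_stabilizer_iff.2 (Subtype.ext ?_)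
      show (MulAut.conj g : G → G) '' clique D c = clique D c
      rw [hM.conj_clique, hM.clique_eq_iff (hC.conj c hc _) hc]
      exact hgc
    exact (zpowers_le.2 h1) ha
  by_contra hcon
  push Not at hcon
  have htwo : MulAction.fixedPoints (zpowers g) {C : Set G // ∃ c ∈ D, C = clique D c} =
      {⟨clique D k, k, hk, rfl⟩, ⟨clique D l, l, hl, rfl⟩} := by
    ext C
    constructor
    · intro hf
      obtain ⟨C, c, hc, rfl⟩ := C
      have e := congrArg Subtype.val (hf ⟨g, mem_zpowers _⟩)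
      change (MulAut.conj g : G → G) '' clique D c = clique D c at e
      rw [hM.conj_clique, hM.clique_eq_iff (hC.conj c hc _) hc] at e
      by_cases h1 : Commute c k
      · exact Or.inl (Subtype.ext ((hM.clique_eq_iff hc hk).2 h1))
      · by_cases h2 : Commute c l
        · exact Or.inr (Subtype.ext ((hM.clique_eq_iff hc hl).2 h2))
        · exact absurd e (hcon c hc h1 h2)
    · rintro (rfl | rfl)
      · exact hfix k hk hgk
      · exact hfix l hl hgl
  have h := (hzp g hg).card_modEq_card_fixedPoints {C : Set G // ∃ c ∈ D, C = clique D c}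
  rw [Nat.card_coe_set_eq, htwo, Set.ncard_pair (fun h => hkl
    ((hM.clique_eq_iff hk hl).1 (congrArg Subtype.val h)))] at h
  have h2 : p ∣ 2 := Nat.modEq_zero_iff_dvd.1 (h.symm.trans (Nat.modEq_zero_iff_dvd.2 hzero))
  have := Nat.le_of_dvd (by norm_num) h2
  have := hC.five
  omega

theorem contradiction : False := by
  classical
  have hC := hM.cfg
  obtain ⟨k, hk⟩ := hM.nonempty
  obtain ⟨l, hl, hkl⟩ := hM.exists_nc hk
  have h₀ := hM.swaps_nonempty hk hl hkl
  obtain ⟨s₁, h₁, hne1⟩ := Set.exists_ne_of_one_lt_ncard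
    (by rw [hM.swaps_card hk hl hkl]; exact hC.prime.one_lt) (mid p k l)
  have hne : mid p k l ≠ s₁ := hne1.symm
  set g := mid p k l * s₁ with hg
  obtain ⟨ho, -, -, -⟩ := hM.swaps_eq hk hl hkl h₀ h₁ hne
  have hgp : g ^ p = 1 := by rw [← ho, pow_orderOf_eq_one]
  have hpr := hM.pow_pres hk hl hkl h₀ h₁ hne 1
  rw [pow_one] at hpr
  obtain ⟨m, hm, hmk, hml, hgm⟩ := hM.exists_third hk hl hkl hgp hpr.1 hpr.2.1
  have hlm : ¬ Commute l m := fun h => hml h.symm
  -- three swaps
  set a := mid p k l with ha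
  set b := mid p l m with hb
  set c := mid p m k with hc
  have haS := hM.swaps_nonempty hk hl hkl
  have hbS := hM.swaps_nonempty hl hm hlm
  have hcS := hM.swaps_nonempty hm hk hmk
  have ia := hM.inverted hk hl hkl hgp hpr.1 hpr.2.1 a haS
  have ib := hM.inverted hl hm hlm hgp hpr.2.1 hgm b hbS
  have ic := hM.inverted hm hk hmk hgp hgm hpr.1 c hcS
  have iinv : ∀ s : G, s ∈ D → s * g * s = g⁻¹ → s * g⁻¹ * s = g := fun s hs h => by
    rw [← h, show s * (s * g * s) * s = s * s * g * (s * s) by simp only [mul_assoc], hC.sq hs,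
      one_mul, mul_one]
  set h := c * b * a with hh
  have hhinv : h⁻¹ = a * b * c := by
    rw [hh, mul_inv_rev, mul_inv_rev, hC.inv_eq (show a ∈ D from haS.1),
      hC.inv_eq (show b ∈ D from hbS.1), hC.inv_eq (show c ∈ D from hcS.1)]
    simp only [mul_assoc]
  have hhg : h * g * h⁻¹ = g⁻¹ := by
    calc h * g * h⁻¹ = c * (b * (a * g * a) * b) * c := by
          rw [hhinv, hh]; simp only [mul_assoc]
      _ = g⁻¹ := by rw [ia, iinv b hbS.1 ib, ic]
  have hhk : Commute (h * k * h⁻¹) k := by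
    have h1 : Commute (b * (a * k * a) * b) m := by
      have := (hM.conj_commute_iff (g := b)).2 haS.2
      rw [hC.inv_eq hbS.1] at this
      exact hM.ctr (hC.conj_self hbS.1 (hC.conj_self haS.1 hk)) (hC.conj_self hbS.1 hl) hm this
        hbS.2
    have h2 : Commute (c * (b * (a * k * a) * b) * c) k := by
      have := (hM.conj_commute_iff (g := c)).2 h1
      rw [hC.inv_eq hcS.1] at this
      exact hM.ctr (hC.conj_self hcS.1 (hC.conj_self hbS.1 (hC.conj_self haS.1 hk)))
        (hC.conj_self hcS.1 hm) hk this hcS.2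
    convert h2 using 1
    rw [hhinv, hh]; simp only [mul_assoc]
  -- regularity
  have hreg : ∀ i : ℕ, Commute (g ^ i) k → g ^ i = 1 := fun i hi =>
    hM.pow_fix_eq_one hk hl hkl h₀ h₁ hne i hi
  have hconjmem : ∀ i : ℕ, g ^ i * k * (g ^ i)⁻¹ ∈ clique D k := fun i =>
    ⟨hC.conj k hk _, (hM.pow_pres hk hl hkl h₀ h₁ hne i).1⟩
  have hsurj : ∀ d ∈ clique D k, ∃ i : ℕ, g ^ i * k * (g ^ i)⁻¹ = d := by
    intro d hd
    have hinj : Set.InjOn (fun i : ℕ => g ^ i * k * (g ^ i)⁻¹) ↑(Finset.range p) := by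
      intro i hi j hj hij
      simp only [Finset.coe_range, Set.mem_Iio] at hi hj
      by_contra hne'
      wlog hlt : i < j generalizing i j with H
      · exact H hij.symm hj hi (Ne.symm hne') (by omega)
      have e : g ^ j = g ^ i * g ^ (j - i) := by
        rw [← pow_add]
        congr 1
        omega
      simp only [e] at hij
      have hcc : Commute (g ^ (j - i)) k := by
        show g ^ (j - i) * k = k * g ^ (j - i)
        calc g ^ (j - i) * k
            = (g ^ i)⁻¹ * (g ^ i * g ^ (j - i) * k * (g ^ i * g ^ (j - i))⁻¹) * g ^ i *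
              g ^ (j - i) := by group
          _ = (g ^ i)⁻¹ * (g ^ i * k * (g ^ i)⁻¹) * g ^ i * g ^ (j - i) := by rw [← hij]
          _ = k * g ^ (j - i) := by group
      have h1 := orderOf_dvd_of_pow_eq_one (hreg _ hcc)
      rw [hg, ho] at h1
      exact absurd (Nat.le_of_dvd (by omega) h1) (by omega)
    have heq := Set.eq_of_subset_of_ncard_le
      (show (fun i : ℕ => g ^ i * k * (g ^ i)⁻¹) '' ↑(Finset.range p) ⊆ clique D k by
        rintro _ ⟨i, -, rfl⟩; exact hconjmem i)
      (by rw [Set.ncard_image_of_injOn hinj, Set.ncard_coe_finset, Finset.card_range,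
        hM.clique_card hk]) (Set.toFinite _)
    rw [← heq] at hd
    obtain ⟨i, -, hi⟩ := hd
    exact ⟨i, hi⟩
  -- adjust `h` to fix `k`
  obtain ⟨n, hn⟩ := hsurj _ ⟨hC.conj k hk h, hhk⟩
  set h' := (g ^ n)⁻¹ * h with hh'
  have hh'k : h' * k * h'⁻¹ = k := by
    calc h' * k * h'⁻¹ = (g ^ n)⁻¹ * (h * k * h⁻¹) * g ^ n := by rw [hh']; group
      _ = k := by rw [← hn]; group
  have hh'g : h' * g * h'⁻¹ = g⁻¹ := by
    calc h' * g * h'⁻¹ = (g ^ n)⁻¹ * (h * g * h⁻¹) * g ^ n := by rw [hh']; group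
      _ = g⁻¹ := by rw [hhg]; group
  have hgk : g * k * g⁻¹ ∈ clique D k := by simpa using hconjmem 1
  have hne2 : k ≠ g * k * g⁻¹ := by
    intro e
    have hc1 : Commute (g ^ 1) k := by
      rw [pow_one]
      show g * k = k * g
      conv_rhs => rw [e]
      group
    have := hreg 1 hc1
    rw [pow_one] at this
    rw [← hg, this, orderOf_one] at ho
    exact hC.prime.ne_one ho.symm
  have hmul : k * (g * k * g⁻¹) ∈ clique D k :=
    ⟨hM.mul_mem_of_commute hk hgk.1 hgk.2.symm hne2, (Commute.refl k).mul_left hgk.2⟩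
  obtain ⟨z, hz⟩ := hsurj _ hmul
  set v := g ^ z with hv
  have hA : k * (g * k * g⁻¹) = v * k * v⁻¹ := hz.symm
  have hh'v : h' * v * h'⁻¹ = v⁻¹ := by rw [hv, ← conj_pow, hh'g, inv_pow]
  have hh'vinv : h' * v⁻¹ * h'⁻¹ = v := by
    calc h' * v⁻¹ * h'⁻¹ = (h' * v * h'⁻¹)⁻¹ := by group
      _ = v := by rw [hh'v, inv_inv]
  have hh'ginv : h' * g⁻¹ * h'⁻¹ = g := by
    calc h' * g⁻¹ * h'⁻¹ = (h' * g * h'⁻¹)⁻¹ := by group
      _ = g := by rw [hh'g, inv_inv]
  have hB : k * (g⁻¹ * k * g) = v⁻¹ * k * v := by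
    calc k * (g⁻¹ * k * g) = (h' * k * h'⁻¹) * ((h' * g * h'⁻¹) * (h' * k * h'⁻¹) *
          (h' * g⁻¹ * h'⁻¹)) := by rw [hh'k, hh'g, hh'ginv]
      _ = h' * (k * (g * k * g⁻¹)) * h'⁻¹ := by group
      _ = h' * (v * k * v⁻¹) * h'⁻¹ := by rw [hA]
      _ = (h' * v * h'⁻¹) * (h' * k * h'⁻¹) * (h' * v⁻¹ * h'⁻¹) := by group
      _ = v⁻¹ * k * v := by rw [hh'v, hh'k, hh'vinv]
  have hcomm : Commute k (g⁻¹ * k * g) := by
    have := (hM.conj_commute_iff (g := g⁻¹)).2 hgk.2
    convert this using 1 <;> group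
  have hfix : Commute (v * g⁻¹ * v) k := by
    have e : g⁻¹ * (v * k * v⁻¹) * g = v⁻¹ * k * v := by
      calc g⁻¹ * (v * k * v⁻¹) * g = g⁻¹ * (k * (g * k * g⁻¹)) * g := by rw [hA]
        _ = (g⁻¹ * k * g) * k := by group
        _ = v⁻¹ * k * v := by rw [← hcomm.eq, hB]
    show v * g⁻¹ * v * k = k * (v * g⁻¹ * v)
    calc v * g⁻¹ * v * k = v * (g⁻¹ * (v * k * v⁻¹) * g) * (g⁻¹ * v) := by group
      _ = k * (v * g⁻¹ * v) := by rw [e]; group
  have hv2 : v * v = g := by
    have hgv : Commute g⁻¹ v := ((Commute.refl g).inv_left).pow_right z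
    have e : v * g⁻¹ * v = g ^ (2 * z + (p - 1)) := by
      have hginv : g⁻¹ = g ^ (p - 1) := by
        refine inv_eq_of_mul_eq_one_right ?_
        rw [← pow_succ', Nat.sub_add_cancel hC.prime.pos, hgp]
      rw [mul_assoc, hgv.eq, ← mul_assoc, hginv, hv, ← pow_add, ← pow_add, two_mul]
    rw [e] at hfix
    have h1 := hreg _ hfix
    rw [← e, mul_assoc, hgv.eq, ← mul_assoc] at h1
    exact mul_inv_eq_one.1 h1
  have hv3 : Commute (v * v * v) k := by
    have hgk' : g * k * g⁻¹ = k * (v * k * v⁻¹) := by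
      rw [← hA, ← mul_assoc, hC.sq hk, one_mul]
    have e1 : v * v * v * k * (v * v * v)⁻¹ = k := by
      calc v * v * v * k * (v * v * v)⁻¹
          = v * ((v * v) * k * (v * v)⁻¹) * v⁻¹ := by group
        _ = v * (k * (v * k * v⁻¹)) * v⁻¹ := by rw [hv2, hgk']
        _ = (v * k * v⁻¹) * ((v * v) * k * (v * v)⁻¹) := by group
        _ = k := by
            rw [hv2, ← hA, mul_assoc, hC.sq hgk.1, mul_one]
    show v * v * v * k = k * (v * v * v)
    calc v * v * v * k = v * v * v * k * (v * v * v)⁻¹ * (v * v * v) := by group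
      _ = k * (v * v * v) := by rw [e1]
  have h3 : v * v * v = 1 := by
    have e : v * v * v = g ^ (z + z + z) := by rw [hv, ← pow_add, ← pow_add]
    rw [e] at hv3 ⊢
    exact hreg _ hv3
  have hv1 : v = 1 := by
    have h3' : v ^ 3 = 1 := by simpa [pow_succ, mul_assoc] using h3
    have hvp : v ^ p = 1 := by rw [hv, ← pow_mul, mul_comm, pow_mul, hgp, one_pow]
    have hd := Nat.dvd_gcd (orderOf_dvd_of_pow_eq_one h3') (orderOf_dvd_of_pow_eq_one hvp)
    have hcop : Nat.gcd 3 p = 1 := (Nat.coprime_primes Nat.prime_three hC.prime).2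
      (by have := hC.five; omega)
    rw [hcop, Nat.dvd_one, orderOf_eq_one_iff] at hd
    exact hd
  rw [hv1, one_mul] at hv2
  rw [← hg, ← hv2, orderOf_one] at ho
  exact hC.prime.ne_one ho.symm

end Min

end Cfsg.Agent.OddTwoP
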