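import Cfsg.Agent.OddTwoP.Connected
import Cfsg.Agent.OddTwoP.SPower
import Cfsg.Agent.Invol.RankOneQuot
import Cfsg.Agent.Invol.BaerSuzuki
import Cfsg.Agent.S0205
import Mathlib.Data.ZMod.Basic
import Mathlib.FieldTheory.Finite.Basic

/-!
# The case in which commuting is transitive: clique structure
-/

set_option autoImplicit false

namespace Cfsg.Agent.OddTwoP

open Subgroup
open scoped commutatorElement

universe u

namespace Min

variable {G : Type u} [Group G] [Finite G] {p : ℕ} {D : Set G} (hM : Min p D)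
include hM

omit hM in
/-- the clique of `x` -/
def clique (D : Set G) (x : G) : Set G := {d | d ∈ D ∧ Commute d x}

/-- equivalence form -/
theorem ctr {a b c : G} (ha : a ∈ D) (hb : b ∈ D) (hc : c ∈ D) (h1 : Commute a b)
    (h2 : Commute b c) : Commute a c :=
  hM.commute_trans hb hc ha h2 h1

theorem conj_commute_iff {g a b : G} :
    Commute (g * a * g⁻¹) (g * b * g⁻¹) ↔ Commute a b :=
  ⟨fun h => by simpa [mul_assoc] using h.map (MulAut.conj g⁻¹).toMonoidHom,
    fun h => by simpa using h.map (MulAut.conj g).toMonoidHom⟩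

/-- some two distinct members commute -/
theorem exists_commuting : ∃ x ∈ D, ∃ a ∈ D, x ≠ a ∧ Commute x a := by
  by_contra h
  push Not at h
  obtain ⟨x, hx⟩ := hM.nonempty
  have hiso : Invol.IsIsolatedInv x := ⟨hM.cfg.inv x hx, fun g hg => by
    by_contra hne
    exact h _ (hM.cfg.conj x hx g) x hx hne hg⟩
  have hO : pPrimeCore 2 G = ⊥ := by
    haveI : Fact (Nat.Prime 2) := ⟨Nat.prime_two⟩
    refine hM.hsol _ inferInstance (Cfsg.Agent.S0205.result ?_)
    exact Nat.odd_iff.2 (Nat.two_dvd_ne_zero.1 Cores.not_dvd_card_pPrimeCore)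
  refine hM.not_central (hM.cfg.ne_one hx) fun d _ => ?_
  have hmem := Invol.zStar_theorem G x hiso d
  rw [hO, mem_bot, commutatorElement_eq_one_iff_mul_comm] at hmem
  exact hmem.symm

/-- no member other than those commuting with it can be moved inside its clique -/
theorem moves {x y : G} (hx : x ∈ D) (hy : y ∈ D) (h : ¬ Commute x y) :
    ¬ Commute y (x * y * x) := hM.cfg.conj_not_commute hx hy h

theorem mul_mem_of_commute {x a : G} (hx : x ∈ D) (ha : a ∈ D) (hxa : Commute x a)
    (hne : x ≠ a) : x * a ∈ D := by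
  by_contra ht
  have hC := hM.cfg
  have ht2 := hM.mul_sq hx ha hxa
  -- `x * a` maps every member to a member commuting with it
  let K : Subgroup G :=
    { carrier := {g | ∀ d ∈ D, Commute (g * d * g⁻¹) d}
      one_mem' := fun d _ => by simp
      mul_mem' := fun {g h} hg hh d hd => by
        have h1 : Commute (g * h * d * (g * h)⁻¹) (g * d * g⁻¹) := by
          have := (hM.conj_commute_iff (g := g)).2 (hh d hd)
          convert this using 1
          group
        exact hM.ctr (hC.conj d hd _) (hC.conj d hd g) hd h1 (hg d hd)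
      inv_mem' := fun {g} hg d hd => by
        have := (hM.conj_commute_iff (g := g⁻¹)).2 (hg d hd)
        convert this.symm using 1
        group }
  have hKn : K.Normal := ⟨fun g hg h d hd => by
    have hd' := hC.conj d hd h⁻¹
    rw [inv_inv] at hd'
    have := (hM.conj_commute_iff (g := h)).2 (hg _ hd')
    convert this using 1 <;> group⟩
  have htinv : (x * a)⁻¹ = x * a := inv_eq_of_mul_eq_one_left ht2
  have htK : x * a ∈ K := by
    intro d hd
    rw [htinv]
    by_cases hdx : Commute d x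
    · have hda := hM.ctr hd hx ha hdx hxa
      rw [← (hdx.mul_right hda).eq, mul_assoc, ht2, mul_one]
    · exact (hM.commute_conj hx ha hd hxa hne ht hdx
        (fun h => hdx (hM.ctr hd ha hx h hxa.symm))).symm
  set U := closure (clique D x) with hU
  set A := U ⊓ K with hA
  have hxaU : x * a ∈ U := mul_mem (subset_closure ⟨hx, Commute.refl x⟩)
    (subset_closure ⟨ha, hxa.symm⟩)
  have hUc : ∀ u ∈ U, ∀ d ∈ clique D x, Commute u d := by
    intro u hu d hd
    induction hu using closure_induction with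
    | mem e he => exact hM.ctr he.1 hx hd.1 he.2 hd.2.symm
    | one => exact Commute.one_left d
    | mul e f _ _ h1 h2 => exact h1.mul_left h2
    | inv e _ h1 => exact h1.inv_left
  have hU2 : ∀ u ∈ U, u * u = 1 := by
    intro u hu
    induction hu using closure_induction with
    | mem e he => exact hC.sq he.1
    | one => exact one_mul 1
    | mul e f he hf h1 h2 =>
      have hc : Commute e f := by
        clear h1 h2
        induction hf using closure_induction with
        | mem k hk => exact hUc e he k hk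
        | one => exact Commute.one_right e
        | mul k l _ _ h1 h2 => exact h1.mul_right h2
        | inv k _ h1 => exact h1.inv_right
      rw [← pow_two, hc.mul_pow, pow_two, pow_two, h1, h2, one_mul]
    | inv e _ h1 => rw [← mul_inv_rev, h1, inv_one]
  haveI : Fact (Nat.Prime 2) := ⟨Nat.prime_two⟩
  have hA2 : IsPGroup 2 A := fun u => ⟨1, by
    rw [pow_one]
    exact Subtype.ext (by simpa [pow_two] using hU2 u.1 (mem_inf.1 u.2).1)⟩
  have hnorm : K ≤ normalizer (A : Set G) := by
    intro g hg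
    have hmap : ∀ g ∈ K, ∀ u ∈ A, g * u * g⁻¹ ∈ A := by
      intro g hg u hu
      refine mem_inf.2 ⟨?_, hKn.conj_mem u (mem_inf.1 hu).2 g⟩
      have hu' := (mem_inf.1 hu).1
      clear hu
      induction hu' using closure_induction with
      | mem e he =>
        refine subset_closure ⟨hC.conj e he.1 g, ?_⟩
        exact hM.ctr (hC.conj e he.1 g) he.1 hx (hg e he.1) he.2
      | one => simp
      | mul e f _ _ h1 h2 =>
        have := mul_mem h1 h2
        convert this using 1
        group
      | inv e _ h1 =>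
        have := inv_mem h1
        convert this using 1
        group
    refine mem_normalizer_iff.2 fun u => ⟨hmap g hg u, fun h => ?_⟩
    have := hmap g⁻¹ (inv_mem hg) _ h
    convert this using 1
    group
  have hzp : ∀ g : G, IsPGroup 2 ↥(zpowers (x * a) ⊔ Fusion.cj g (zpowers (x * a))) := by
    intro g
    have h2 : IsPGroup 2 (zpowers (x * a)) := fun u => ⟨1, by
      rw [pow_one]
      obtain ⟨k, hk⟩ := u.2
      refine Subtype.ext ?_
      show (u : G) ^ 2 = 1
      rw [← hk]
      show ((x * a) ^ k) ^ 2 = 1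
      rw [← zpow_natCast ((x * a) ^ k), ← zpow_mul, mul_comm, zpow_mul, zpow_natCast, pow_two, ht2,
        one_zpow]⟩
    have h3 : IsPGroup 2 (Fusion.cj g (zpowers (x * a))) := h2.map _
    have h4 : Fusion.cj g (zpowers (x * a)) ≤ K := by
      rintro _ ⟨u, hu, rfl⟩
      obtain ⟨k, rfl⟩ := hu
      exact hKn.conj_mem _ (zpow_mem htK k) g
    exact (hA2.to_sup_of_normal_left' h3 (h4.trans hnorm)).to_le
      (sup_le_sup_right (zpowers_le.2 (mem_inf.2 ⟨hxaU, htK⟩)) _)
  obtain ⟨N, hN, hNp, hle⟩ := Invol.baer_suzuki (zpowers (x * a))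
    (fun u => by
      obtain ⟨k, hk⟩ := hA2.to_le (zpowers_le.2 (mem_inf.2 ⟨hxaU, htK⟩)) u
      exact ⟨k, hk⟩) hzp
  have h1 : x * a ∈ (⊥ : Subgroup G) := hM.no_pgroup hN hNp ▸ hle (mem_zpowers _)
  rw [mem_bot] at h1
  exact hne (by rw [eq_inv_of_mul_eq_one_left h1, hC.inv_eq ha])

/-- The members exchanging the cliques of `k` and `l`. -/
def swaps (D : Set G) (k l : G) : Set G := {s | s ∈ D ∧ Commute (s * k * s) l}

theorem swaps_not_commute {k l s : G} (hk : k ∈ D) (hkl : ¬ Commute k l)
    (hs : s ∈ swaps D k l) : ¬ Commute s k := by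
  intro h
  apply hkl
  have := hs.2
  rwa [h.eq, mul_assoc, hM.cfg.sq hs.1, mul_one] at this

theorem swaps_symm {k l s : G} (hs : s ∈ swaps D k l) : s ∈ swaps D l k := by
  refine ⟨hs.1, ?_⟩
  have h := (hM.conj_commute_iff (g := s)).2 hs.2
  rw [hM.cfg.inv_eq hs.1,
    show s * (s * k * s) * s = s * s * k * (s * s) by simp only [mul_assoc], hM.cfg.sq hs.1,
    one_mul, mul_one] at h
  exact h.symm

theorem swaps_conj {k l s s' : G} (hk : k ∈ D) (hl : l ∈ D) (hs : s ∈ swaps D k l)
    (hs' : s' ∈ swaps D k l) : s * s' * s ∈ swaps D k l := by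
  have hC := hM.cfg
  have hs'l := hM.swaps_symm hs'
  have hls := hM.swaps_symm hs
  refine ⟨hC.conj_self hs.1 hs'.1, ?_⟩
  rw [show s * s' * s * k * (s * s' * s) = s * (s' * (s * k * s) * s') * s by
    simp only [mul_assoc]]
  set w := s * k * s with hw
  have hwD : w ∈ D := hC.conj_self hs.1 hk
  have h1 : Commute (s' * w * s') (s' * l * s') := by
    have := (hM.conj_commute_iff (g := s')).2 hs.2
    rwa [hC.inv_eq hs'.1] at this
  have h2 : Commute (s' * w * s') k :=
    hM.ctr (hC.conj_self hs'.1 hwD) (hC.conj_self hs'.1 hl) hk h1 hs'l.2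
  have h3 : Commute (s * (s' * w * s') * s) (s * k * s) := by
    have := (hM.conj_commute_iff (g := s)).2 h2
    rwa [hC.inv_eq hs.1] at this
  exact hM.ctr (hC.conj_self hs.1 (hC.conj_self hs'.1 hwD)) hwD hl h3 hs.2

theorem ncard_swaps {k l : G} (hk : k ∈ D) (hl : l ∈ D) (hkl : ¬ Commute k l) :
    (swaps D k l).ncard = (clique D l).ncard := by
  have hC := hM.cfg
  rw [← Set.ncard_image_of_injOn (f := fun s => s * k * s)]
  · congr 1
    ext d
    constructor
    · rintro ⟨s, hs, rfl⟩
      exact ⟨hC.conj_self hs.1 hk, hs.2⟩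
    · rintro ⟨hd, hdl⟩
      have hkd : ¬ Commute k d := fun h => hkl (hM.ctr hk hd hl h hdl)
      refine ⟨mid p k d, ⟨hC.mid_mem hk hd hkd, ?_⟩, hC.mid_conj hk hd hkd⟩
      rw [hC.mid_conj hk hd hkd]
      exact hdl
  · intro s hs s' hs' he
    exact hC.conj_inj hk hs.1 hs'.1 (hM.swaps_not_commute hk hkl hs) he

theorem swaps_pairwise {k l s s' : G} (hk : k ∈ D) (hl : l ∈ D) (hkl : ¬ Commute k l)
    (hs : s ∈ swaps D k l) (hs' : s' ∈ swaps D k l) (hne : s ≠ s') : ¬ Commute s s' := by
  intro hc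
  have hC := hM.cfg
  have hd := hM.mul_mem_of_commute hs.1 hs'.1 hc hne
  have h1 : Commute (s * (s' * k * s') * s) k := by
    have h := (hM.conj_commute_iff (g := s)).2 hs'.2
    rw [hC.inv_eq hs.1] at h
    exact hM.ctr (hC.conj_self hs.1 (hC.conj_self hs'.1 hk)) (hC.conj_self hs.1 hl) hk h
      (hM.swaps_symm hs).2
  have h2 : Commute (s * s' * k * (s * s')) k := by
    rw [show s * s' * k * (s * s') = s * s' * k * (s' * s) by rw [hc.eq]]
    simpa only [mul_assoc] using h1
  have h3 : Commute (s * s') k := by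
    by_contra h
    exact hM.moves hd hk h h2.symm
  exact hM.swaps_not_commute hk hkl hs
    (hM.ctr hs.1 hd hk ((Commute.refl s).mul_right hc) h3)

theorem swaps_generate_ne_top {k l : G} (hk : k ∈ D) (hl : l ∈ D) (hkl : ¬ Commute k l) :
    closure (swaps D k l) ≠ ⊤ := by
  intro htop
  have hC := hM.cfg
  let P : G → Prop := fun g => (Commute (g * k * g⁻¹) k ∧ Commute (g * l * g⁻¹) l) ∨
    (Commute (g * k * g⁻¹) l ∧ Commute (g * l * g⁻¹) k)
  have hmul : ∀ g h, P g → P h → P (g * h) := by
    intro g h hg hh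
    have tr : ∀ {a b c : G}, a ∈ D → b ∈ D → c ∈ D → Commute (h * a * h⁻¹) b →
        Commute (g * b * g⁻¹) c → Commute (g * h * a * (g * h)⁻¹) c := by
      intro a b c ha hb hc e1 e2
      have e3 := (hM.conj_commute_iff (g := g)).2 e1
      rw [show g * (h * a * h⁻¹) * g⁻¹ = g * h * a * (g * h)⁻¹ by group] at e3
      exact hM.ctr (hC.conj a ha _) (hC.conj b hb g) hc e3 e2
    rcases hg with ⟨g1, g2⟩ | ⟨g1, g2⟩ <;> rcases hh with ⟨h1, h2⟩ | ⟨h1, h2⟩
    · exact Or.inl ⟨tr hk hk hk h1 g1, tr hl hl hl h2 g2⟩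
    · exact Or.inr ⟨tr hk hl hl h1 g2, tr hl hk hk h2 g1⟩
    · exact Or.inr ⟨tr hk hk hl h1 g1, tr hl hl hk h2 g2⟩
    · exact Or.inl ⟨tr hk hl hk h1 g2, tr hl hk hl h2 g1⟩
  have hS : ∀ s ∈ swaps D k l, P s := by
    intro s hs
    right
    rw [hC.inv_eq hs.1]
    exact ⟨hs.2, (hM.swaps_symm hs).2⟩
  have hall : ∀ g : G, P g := by
    intro g
    have hg : g ∈ closure (swaps D k l) := htop ▸ mem_top g
    induction hg using closure_induction_left with
    | one => exact Or.inl (by simp)
    | mul_left s hs g _ ih => exact hmul s g (hS s hs) ih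
    | inv_mul_cancel s hs g _ ih =>
      rw [hC.inv_eq hs.1]
      exact hmul s g (hS s hs) ih
  have hn := hM.moves hk hl hkl
  have hk' := hall k
  simp only [P, hC.inv_eq hk] at hk'
  rw [hC.sq hk, one_mul] at hk'
  rcases hk' with ⟨-, h⟩ | ⟨h, -⟩
  · exact hn h.symm
  · exact hkl h

theorem clique_card_eq {x y : G} (hx : x ∈ D) (hy : y ∈ D) :
    (clique D x).ncard = (clique D y).ncard := hM.ncard_commute hx hy

theorem exists_nc {x : G} (hx : x ∈ D) : ∃ y ∈ D, ¬ Commute x y := by
  by_contra h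
  push Not at h
  exact hM.not_central (hM.cfg.ne_one hx) fun d hd => (h d hd).symm

/-- Every clique has exactly `p` members. -/
theorem clique_card {x : G} (hx : x ∈ D) : (clique D x).ncard = p := by
  classical
  have hC := hM.cfg
  obtain ⟨y, hy, hxy⟩ := hM.exists_nc hx
  set S := swaps D x y with hS
  have hSD : S ⊆ D := fun s hs => hs.1
  have hsol := hM.proper S hSD (hM.swaps_generate_ne_top hx hy hxy)
  obtain ⟨s0, hs0⟩ : S.Nonempty := ⟨mid p x y, hC.mid_mem hx hy hxy, by
    rw [hC.mid_conj hx hy hxy]⟩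
  -- restrict to the closure
  set T := closure S with hT
  let S' : Set T := ((↑) : T → G) ⁻¹' S
  have hinv : ∀ g : T, ∀ s ∈ S, (g : G) * s * (g : G)⁻¹ ∈ S := by
    rintro ⟨g, hg⟩
    show ∀ s ∈ S, g * s * g⁻¹ ∈ S
    induction hg using closure_induction_left with
    | one => intro s hs; simpa using hs
    | mul_left d hd g _ ih =>
      intro s hs
      have := hM.swaps_conj hx hy hd (ih s hs)
      convert this using 1
      rw [mul_inv_rev, hC.inv_eq hd.1]
      simp only [mul_assoc]
    | inv_mul_cancel d hd g _ ih =>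
      intro s hs
      have := hM.swaps_conj hx hy hd (ih s hs)
      convert this using 1
      rw [hC.inv_eq hd.1, mul_inv_rev, hC.inv_eq hd.1]
      simp only [mul_assoc]
  have hC' : Config p S' :=
    { prime := hC.prime
      five := hC.five
      inv := fun d hd => (hC.subgroup T).inv d (hSD hd)
      conj := fun d hd g => hinv g _ hd
      prod := fun d hd e he => (hC.subgroup T).prod d (hSD hd) e (hSD he) }
  obtain ⟨e, he⟩ := spower hsol hC' ⟨⟨s0, subset_closure hs0⟩, hs0⟩ fun d hd e he hne h =>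
    hM.swaps_pairwise hx hy hxy hd he (fun h' => hne (Subtype.ext h')) (congrArg Subtype.val h.eq)
  have hcard : (clique D x).ncard = p ^ e := by
    rw [← he, hM.clique_card_eq hx hy, ← hM.ncard_swaps hx hy hxy,
      ← Set.ncard_image_of_injective S' Subtype.val_injective,
      Set.image_preimage_eq_of_subset ?_]
    intro s hs
    exact ⟨⟨s, subset_closure hs⟩, rfl⟩
  -- the clique with 1 is an elementary abelian 2-group
  let U : Subgroup G :=
    { carrier := insert 1 (clique D x)
      one_mem' := Set.mem_insert _ _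
      mul_mem' := by
        rintro a b (rfl | ha) hb
        · rwa [one_mul]
        rcases hb with rfl | hb
        · rw [mul_one]; exact Or.inr ha
        rcases eq_or_ne a b with rfl | hne
        · rw [hC.sq ha.1]; exact Or.inl rfl
        · exact Or.inr ⟨hM.mul_mem_of_commute ha.1 hb.1 (hM.ctr ha.1 hx hb.1 ha.2 hb.2.symm) hne,
            ha.2.mul_left hb.2⟩
      inv_mem' := by
        rintro a (rfl | ha)
        · simp
        · rw [hC.inv_eq ha.1]; exact Or.inr ha }
  haveI : Fact (Nat.Prime 2) := ⟨Nat.prime_two⟩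
  have hU2 : IsPGroup 2 U := fun a => ⟨1, by
    rw [pow_one, pow_two]
    rcases a.2 with h | h
    · exact Subtype.ext (by simp [h])
    · exact Subtype.ext (hC.sq h.1)⟩
  obtain ⟨m, hm⟩ := IsPGroup.iff_card.1 hU2
  have hUcard : Nat.card U = p ^ e + 1 := by
    rw [← hcard]
    show Nat.card ↥(insert 1 (clique D x) : Set G) = _
    rw [Nat.card_coe_set_eq,
      Set.ncard_insert_of_notMem (fun h => hC.ne_one h.1 rfl) (Set.toFinite _)]
  -- at least two
  obtain ⟨x₁, hx₁, a, ha, hne, hca⟩ := hM.exists_commuting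
  have h2 : 2 ≤ (clique D x).ncard := by
    rw [hM.clique_card_eq hx hx₁]
    calc 2 = ({x₁, a} : Set G).ncard := (Set.ncard_pair hne).symm
      _ ≤ _ := Set.ncard_le_ncard (by
          rintro d (rfl | rfl)
          · exact ⟨hx₁, Commute.refl _⟩
          · exact ⟨ha, hca.symm⟩) (Set.toFinite _)
  rw [hcard] at h2 ⊢
  -- `p ^ e + 1 = 2 ^ m` forces `e = 1`
  have he0 : e ≠ 0 := by rintro rfl; simp at h2
  have hpm : p ^ e + 1 = 2 ^ m := hUcard ▸ hm
  have hp5 := hC.five
  by_contra hne1
  have he2 : 2 ≤ e := by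
    rcases Nat.lt_or_ge e 2 with h | h
    · exfalso; apply hne1
      rw [show e = 1 by omega, pow_one]
    · exact h
  have hple : p + 1 < 2 ^ m := by
    have : p ^ 2 ≤ p ^ e := Nat.pow_le_pow_right (by omega) he2
    rw [← hpm]
    nlinarith
  obtain ⟨j, hj⟩ := hC.odd
  have hsq : (p : ZMod (2 * (p + 1))) ^ 2 = 1 := by
    have h0 : ((2 * (p + 1) : ℕ) : ZMod (2 * (p + 1))) = 0 := ZMod.natCast_self _
    have hdec : p ^ 2 = j * (2 * (p + 1)) + 1 := by subst hj; ring
    rw [← Nat.cast_pow, hdec, Nat.cast_add, Nat.cast_mul, h0, mul_zero, zero_add, Nat.cast_one]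
  have hodd : Odd e := by
    rcases Nat.even_or_odd e with ⟨i, hi⟩ | hodd
    · exfalso
      have h4 : (4 : ℕ) ∣ 2 ^ m := by
        have : 2 ≤ m := by
          by_contra h
          have : 2 ^ m ≤ 2 ^ 1 := Nat.pow_le_pow_right (by norm_num) (by omega)
          omega
        exact Nat.pow_dvd_pow 2 this
      rw [← hpm, hi, ← two_mul, mul_comm, pow_mul] at h4
      obtain ⟨k, hk⟩ := hC.odd.pow (n := i)
      rw [hk] at h4
      obtain ⟨c, hc⟩ := h4
      have hexp : (2 * k + 1) ^ 2 + 1 = 4 * (k * k + k) + 2 := by ring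
      omega
    · exact hodd
  obtain ⟨i, hi⟩ := hodd
  have hz : ((2 ^ m : ℕ) : ZMod (2 * (p + 1))) = ((p + 1 : ℕ) : ZMod (2 * (p + 1))) := by
    rw [← hpm, Nat.cast_add, Nat.cast_pow, hi, pow_succ, pow_mul, hsq, one_pow, one_mul,
      ← Nat.cast_add]
  have hdvd : p + 1 ∣ 2 ^ m := by
    have h1 : 2 ^ m % (2 * (p + 1)) = (p + 1) % (2 * (p + 1)) :=
      (ZMod.natCast_eq_natCast_iff' _ _ _).1 hz
    rw [Nat.mod_eq_of_lt (by omega : p + 1 < 2 * (p + 1))] at h1
    have h3 := Nat.div_add_mod (2 ^ m) (2 * (p + 1))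
    rw [h1] at h3
    exact ⟨2 * (2 ^ m / (2 * (p + 1))) + 1, by linarith⟩
  obtain ⟨b, hb, hpb⟩ := (Nat.dvd_prime_pow Nat.prime_two).1 hdvd
  have hbm : b < m := by
    rcases Nat.lt_or_ge b m with h | h
    · exact h
    · have : 2 ^ m ≤ 2 ^ b := Nat.pow_le_pow_right (by norm_num) h
      omega
  have h1 : 2 ^ m % (2 * (p + 1)) = (p + 1) % (2 * (p + 1)) :=
    (ZMod.natCast_eq_natCast_iff' _ _ _).1 hz
  rw [Nat.mod_eq_of_lt (by omega : p + 1 < 2 * (p + 1))] at h1
  have h0 : 2 ^ m % (2 * (p + 1)) = 0 := by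
    apply Nat.mod_eq_zero_of_dvd
    rw [hpb, ← pow_succ']
    exact Nat.pow_dvd_pow 2 hbm
  omega

end Min

end Cfsg.Agent.OddTwoP
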