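import Cfsg.Agent.OddTwoP.Count

/-!
# Main theorem: a group generated by such a set is solvable
-/

set_option autoImplicit false

namespace Cfsg.Agent.OddTwoP

open Subgroup

universe u

theorem solvable_aux (n : ℕ) : ∀ (G : Type u) [Group G] [Finite G], Nat.card G = n →
    ∀ (p : ℕ) (D : Set G), Config p D → closure D = ⊤ → Group.IsSolvable G := by
  induction n using Nat.strong_induction_on with
  | _ n ih =>
  intro G _ _ hn p D hC hgen
  by_contra hns
  have hsol : ∀ N : Subgroup G, N.Normal → Group.IsSolvable N → N = ⊥ := by
    intro N hN hs
    by_contra hne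
    haveI := hN
    let f := QuotientGroup.mk' N
    have hsurj : Function.Surjective f := QuotientGroup.mk'_surjective N
    have hgen' : closure (f '' D \ {1}) = ⊤ := by
      refine top_unique ?_
      rw [← Subgroup.map_top_of_surjective f hsurj, ← hgen, MonoidHom.map_closure, closure_le]
      intro d hd
      by_cases h1 : d = 1
      · rw [h1]; exact one_mem _
      · exact subset_closure ⟨hd, h1⟩
    have hq := ih _ (hn ▸ card_quotient_lt hne) (G ⧸ N) rfl p _ (hC.map f hsurj) hgen'
    apply hns
    haveI := hs
    refine Group.isSolvable_of_ker_le_range N.subtype f ?_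
    rw [QuotientGroup.ker_mk', N.range_subtype]
  have hproper : ∀ S ⊆ D, closure S ≠ ⊤ → Group.IsSolvable (closure S) := by
    intro S hS hne
    have hlt : Nat.card (closure S) < n := by
      refine hn ▸ lt_of_le_of_ne (Subgroup.card_le_card_group _) fun h => hne ?_
      exact Subgroup.eq_top_of_card_eq _ h
    refine ih _ hlt (closure S) rfl p _ (hC.subgroup (closure S)) (top_unique ?_)
    rw [← Subgroup.closure_closure_coe_preimage (k := S)]
    exact Subgroup.closure_mono (Set.preimage_mono hS)
  have hne : D.Nonempty := by
    rcases Set.eq_empty_or_nonempty D with h | h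
    · exfalso
      rw [h, Subgroup.closure_empty] at hgen
      apply hns
      haveI : Subsingleton G := Subgroup.subsingleton_iff.1 (subsingleton_of_bot_eq_top hgen)
      exact Group.isSolvable_of_comm fun a b => Subsingleton.elim _ _
    · exact h
  exact Min.contradiction ⟨hC, hgen, hne, hsol, hproper⟩

/-- A finite group generated by an invariant set of involutions in which non-commuting pairs all
have products of one prime order `p ≥ 5` is solvable. -/
theorem isSolvable {G : Type u} [Group G] [Finite G] {p : ℕ} {D : Set G} (hC : Config p D)
    (hgen : closure D = ⊤) : Group.IsSolvable G := solvable_aux _ G rfl p D hC hgen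

end Cfsg.Agent.OddTwoP
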