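import Cfsg.Agent.OddTwoP.Main
import Cfsg.Agent.Gagola.Baer

/-!
# Classes of involutions with a single non-commuting product order
-/

set_option autoImplicit false

namespace Cfsg.Agent.OddTwoP

open Subgroup
open scoped commutatorElement

universe u

variable {G : Type u} [Group G] [Finite G] {D : Set G}

theorem exists_commuting_of_noSolvable
    (hsol : ∀ N : Subgroup G, N.Normal → Group.IsSolvable N → N = ⊥)
    (hinv : ∀ d ∈ D, orderOf d = 2) (hconj : ∀ d ∈ D, ∀ g : G, g * d * g⁻¹ ∈ D)
    (hgen : closure D = ⊤) {x : G} (hx : x ∈ D) : ∃ y ∈ D, y ≠ x ∧ Commute y x := by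
  by_contra h
  push Not at h
  have hiso : Invol.IsIsolatedInv x := ⟨hinv x hx, fun g hg => by
    by_contra hne
    exact h _ (hconj x hx g) hne hg⟩
  have hO : pPrimeCore 2 G = ⊥ := by
    haveI : Fact (Nat.Prime 2) := ⟨Nat.prime_two⟩
    refine hsol _ inferInstance (Cfsg.Agent.S0205.result ?_)
    exact Nat.odd_iff.2 (Nat.two_dvd_ne_zero.1 Cores.not_dvd_card_pPrimeCore)
  have hz : x ∈ center G := by
    refine mem_center_iff.2 fun d => ?_
    have hmem := Invol.zStar_theorem G x hiso d
    rw [hO, mem_bot, commutatorElement_eq_one_iff_mul_comm] at hmem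
    exact hmem.symm
  have hc : center G = ⊥ := hsol _ inferInstance
    (Group.isSolvable_of_comm fun a b => Subtype.ext (mem_center_iff.1 b.2 a.1))
  rw [hc, mem_bot] at hz
  exact Invol.inv_ne_one (hinv x hx) hz

theorem conj_mem_reflection (hinv : ∀ d ∈ D, orderOf d = 2)
    (hconj : ∀ d ∈ D, ∀ g : G, g * d * g⁻¹ ∈ D) {x y : G} (hx : x ∈ D) (hy : y ∈ D) (i : ℕ) :
    x * (x * y) ^ (2 * i) ∈ D := by
  have h := hconj x hx ((x * y) ^ (-(i : ℤ)))
  rw [Invol.conj_left_zpow (hinv x hx) (hinv y hy)] at h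
  rw [← zpow_natCast, Nat.cast_mul]
  exact h

/-- The dichotomy for a class with one non-commuting product order. -/
theorem isThreeTransposition_of_const
    (hsol : ∀ N : Subgroup G, N.Normal → Group.IsSolvable N → N = ⊥)
    (hinv : ∀ d ∈ D, orderOf d = 2) (hconj : ∀ d ∈ D, ∀ g : G, g * d * g⁻¹ ∈ D)
    (hgen : closure D = ⊤) {n : ℕ}
    (hn : ∀ x ∈ D, ∀ y ∈ D, Commute x y ∨ orderOf (x * y) = n) :
    ∀ x ∈ D, ∀ y ∈ D, (x * y) ^ 2 = 1 ∨ (x * y) ^ 3 = 1 := by
  intro x hx y hy
  have sq : ∀ d ∈ D, d * d = 1 := fun d hd => Invol.inv_mul_self (hinv d hd)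
  have comm_sq : ∀ a ∈ D, ∀ b ∈ D, Commute a b → (a * b) ^ 2 = 1 := fun a ha b hb h => by
    rw [h.mul_pow, pow_two, pow_two, sq a ha, sq b hb, one_mul]
  by_cases hxy : Commute x y
  · exact Or.inl (comm_sq x hx y hy hxy)
  have ho : orderOf (x * y) = n := (hn x hx y hy).resolve_left hxy
  have hnpos : 0 < n := ho ▸ orderOf_pos _
  have hn2 : ¬ n ∣ 2 := by
    intro h
    apply hxy
    have h2 : (x * y) ^ 2 = 1 := orderOf_dvd_iff_pow_eq_one.1 (ho ▸ h)
    rw [pow_two] at h2
    have := inv_eq_of_mul_eq_one_left h2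
    rw [mul_inv_rev, Invol.inv_eq (hinv x hx), Invol.inv_eq (hinv y hy)] at this
    exact this.symm
  -- powers
  have key : ∀ i : ℕ, orderOf ((x * y) ^ (2 * i)) ∣ 2 ∨ orderOf ((x * y) ^ (2 * i)) = n := by
    intro i
    have hd := conj_mem_reflection hinv hconj hx hy i
    have e : x * (x * (x * y) ^ (2 * i)) = (x * y) ^ (2 * i) := by
      rw [← mul_assoc, sq x hx, one_mul]
    rcases hn x hx _ hd with h | h
    · left
      have := comm_sq x hx _ hd h
      rw [e] at this
      exact orderOf_dvd_of_pow_eq_one this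
    · right
      rwa [e] at h
  by_cases hn4 : n = 4
  · exfalso
    haveI : Fact (Nat.Prime 2) := ⟨Nat.prime_two⟩
    have hpg := Gagola.isPGroup_closure_of_pairwise (p := 2) D (fun g d hd => hconj d hd g) ?_
    · haveI : Group.IsNilpotent (closure D) := IsPGroup.isNilpotent hpg
      have htop := hsol (closure D) (hgen ▸ inferInstance) inferInstance
      rw [hgen] at htop
      have : x ∈ (⊥ : Subgroup G) := htop ▸ mem_top x
      exact Invol.inv_ne_one (hinv x hx) (mem_bot.1 this)
    · intro a ha b hb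
      rintro ⟨d, hd⟩
      refine ⟨2, Subtype.ext ?_⟩
      show d ^ 2 ^ 2 = 1
      have hw : (a * b) ^ 4 = 1 := by
        rcases hn a ha b hb with h | h
        · rw [show (4 : ℕ) = 2 * 2 from rfl, pow_mul, comm_sq a ha b hb h, one_pow]
        · rw [← hn4, ← h, pow_orderOf_eq_one]
      obtain ⟨i, rfl | rfl⟩ := (Invol.mem_closure_pair_iff (hinv a ha) (hinv b hb)).1 hd
      · rw [← zpow_natCast ((a * b) ^ i), ← zpow_mul, mul_comm, zpow_mul, zpow_natCast,
          show (2 : ℕ) ^ 2 = 4 from rfl, hw, one_zpow]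
      · have hr2 := Invol.reflection_sq (hinv a ha) (hinv b hb) i
        rw [← pow_two] at hr2
        rw [show (2 : ℕ) ^ 2 = 2 * 2 from rfl, pow_mul, hr2, one_pow]
  -- `n` is odd
  have hodd : Odd n := by
    rcases Nat.even_or_odd n with ⟨m, hm⟩ | h
    · exfalso
      have hord : orderOf ((x * y) ^ (2 * 1)) = m := by
        rw [mul_one, orderOf_pow' _ (by norm_num), ho, hm,
          Nat.gcd_eq_right ⟨m, by ring⟩]
        omega
      rcases key 1 with h | h <;> rw [hord] at h
      · have := Nat.le_of_dvd (by norm_num) h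
        have hm12 : m = 1 ∨ m = 2 := by omega
        rcases hm12 with rfl | rfl
        · exact hn2 (by norm_num [hm])
        · exact hn4 (by omega)
      · omega
    · exact h
  have hprime : n.Prime := by
    have hn1 : n ≠ 1 := fun h => hn2 (h ▸ one_dvd 2)
    by_contra hnp
    set q := n.minFac with hq
    have hqp : q.Prime := Nat.minFac_prime hn1
    have hqd : q ∣ n := Nat.minFac_dvd n
    obtain ⟨r, hr⟩ := hqd
    have hcop : Nat.Coprime (orderOf ((x * y) ^ q)) 2 := by
      refine Nat.Coprime.coprime_dvd_left (orderOf_pow_dvd q) ?_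
      rw [ho]
      exact Nat.coprime_two_right.2 hodd
    have hord : orderOf ((x * y) ^ (2 * q)) = r := by
      rw [mul_comm, pow_mul, hcop.orderOf_pow, orderOf_pow' _ hqp.ne_zero, ho, hr,
        Nat.gcd_eq_right (Dvd.intro r rfl), Nat.mul_div_cancel_left _ hqp.pos]
    rcases key q with h | h <;> rw [hord] at h
    · have hrodd : Odd r := by
        rw [hr, Nat.odd_mul] at hodd
        exact hodd.2
      rcases (Nat.dvd_prime Nat.prime_two).1 h with rfl | rfl
      · rw [mul_one] at hr
        exact hnp (hr ▸ hqp)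
      · exact absurd hrodd (by decide)
    · rw [h] at hr
      have := hqp.one_lt
      have : 1 * n < q * n := Nat.mul_lt_mul_of_pos_right this hnpos
      omega
  by_cases hn3 : n = 3
  · right
    rw [← hn3, ← ho, pow_orderOf_eq_one]
  exfalso
  have hn5 : 5 ≤ n := by
    have := hprime.two_le
    by_contra h
    interval_cases n <;> simp_all
  have hC : Config n D := ⟨hprime, hn5, hinv, hconj, hn⟩
  have hs := isSolvable hC hgen
  have htop := hsol ⊤ inferInstance inferInstance
  have : x ∈ (⊥ : Subgroup G) := htop ▸ mem_top x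
  exact Invol.inv_ne_one (hinv x hx) (mem_bot.1 this)

end Cfsg.Agent.OddTwoP
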